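import Mathlib
import Cfsg.Agent.H18.E27a

/-!
# A group controlled by `3³ : 2²` (helper18)

`H18.Col.card_108`; also `ur` (twice the real part of a character value on an element of order three).
-/

set_option autoImplicit false

open Cfsg H05 Subgroup DihedralGroup
open scoped ComplexConjugate

namespace H18.Col

section
variable {G : Type*} [Group G] [Finite G]

noncomputable def ur (χ : IrrCharacter G) (g : G) : ℤ := ⌊(re2 χ g).re⌋

theorem ur_three {x : G} (hx : x ^ 3 = 1) (χ : IrrCharacter G) : re2 χ x = ur χ x ∧ (ur χ x + dg χ) % 3 = 0 := by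
  obtain ⟨n, hn⟩ := mult (pw x hx) (fun _ => True) (fun _ => 0) 1 trivial (by simp) (by simp) χ
  have e : ∀ F : Multiplicative (ZMod 3) → ℂ, ∑ i, F i = F (.ofAdd 0) + F (.ofAdd 1) + F (.ofAdd 2) := fun F =>
    Fin.sum_univ_three F
  have e2 : re2 χ (x ^ 2) = re2 χ x :=
    (re2_conj χ (Or.inr (by rw [eq_inv_of_mul_eq_one_left (show x ^ 2 * x = 1 by rw [← pow_succ, hx])]))).symm
  rw [e, show pw x hx (.ofAdd 0) = 1 from pow_zero x, show pw x hx (.ofAdd 1) = x from pow_one x,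
    show pw x hx (.ofAdd 2) = x ^ 2 from rfl, e2, rt_one.re2, if_pos trivial, show cos6 0 = 2 from rfl,
    show (Finset.univ.filter fun _ : Multiplicative (ZMod 3) => True).card = 3 by simp] at hn
  have h : re2 χ x = (3 * n - dg χ : ℤ) := by
    push_cast at hn ⊢; unfold dg; linear_combination hn / 4
  have h2 : ur χ x = 3 * n - dg χ := by rw [ur, h, Complex.intCast_re, Int.floor_intCast]
  exact ⟨by rw [h, h2], by omega⟩

theorem orth_ur {x y : G} (hx : x ^ 3 = 1) (hy : Rt y) (h1 : ¬ IsConj x y) (h2 : ¬ IsConj x⁻¹ y) :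
    ∑ χ : IrrCharacter G, ur χ x * iv χ y = 0 := by
  have := congrArg₂ (· + ·) (sum_irr_mul_conj_of_not_isConj h1) (sum_irr_mul_conj_of_not_isConj h2)
  simp only [← Finset.sum_add_distrib, ← add_mul, hy _, map_intCast, add_zero] at this
  simp only [show ∀ χ : IrrCharacter G, χ.1 x + χ.1 x⁻¹ = ur χ x from fun χ => (ur_three hx χ).1] at this
  exact_mod_cast this

theorem ur_self {x : G} (hx : x ^ 3 = 1) (h : ¬ IsConj x x⁻¹) :
    ∑ χ : IrrCharacter G, ur χ x * ur χ x = 2 * Nat.card (centralizer ({x} : Set G)) := by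
  have h1 := sum_irr_mul_conj_of_not_isConj h
  have h2 := sum_irr_mul_conj_of_not_isConj fun k : IsConj x⁻¹ x => h k.symm
  have h3 := sum_irr_mul_conj_of_isConj (IsConj.refl x)
  have : ∑ χ : IrrCharacter G, (ur χ x * ur χ x : ℂ) = 2 * Nat.card (centralizer ({x} : Set G)) := by
    rw [← h3, ← add_zero (2 * _), ← add_zero (0 : ℂ)]
    nth_rewrite 1 [← h1]
    rw [← h2, Finset.mul_sum, ← Finset.sum_add_distrib, ← Finset.sum_add_distrib]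
    refine Finset.sum_congr rfl fun χ _ => ?_
    rw [← (ur_three hx χ).1, re2, χ.2.apply_inv, Complex.conj_conj]; ring
  exact_mod_cast this

theorem ur_triv (x : G) : ur (triv G) x = 2 := by simp [ur, re2, triv]

end

theorem lin_cert {k m : ℕ} (w : Fin m → Fin k → ℤ) (R : Fin k → Fin k → ℤ) (n : Fin m → ℕ)
    (h : ∀ a b, R a b = ∑ j, (n j : ℤ) * (w j a * w j b)) (Q : List (Fin k × Fin k × ℤ)) (j : Fin m) {D : ℤ} (c : ℕ)
    (hD : D ≠ 0) (hQ : ∀ i, (Q.map fun t => t.2.2 * (w i t.1 * w i t.2.1)).sum = if i = j then D else 0)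
    (hR : (Q.map fun t => t.2.2 * R t.1 t.2.1).sum = D * c) : n j = c := by
  have : (Q.map fun t => t.2.2 * R t.1 t.2.1).sum = ∑ i, n i * (Q.map fun t => t.2.2 * (w i t.1 * w i t.2.1)).sum := by
    clear hQ hR
    induction Q with
    | nil => simp
    | cons t Q ih =>
      simp only [List.map_cons, List.sum_cons, ih, mul_add, Finset.sum_add_distrib, h t.1, Finset.mul_sum]
      congr 1
      exact Finset.sum_congr rfl fun i _ => by ring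
  simp only [hR, hQ, mul_ite, mul_zero, Finset.sum_ite_eq', Finset.mem_univ, if_true] at this
  exact_mod_cast mul_left_cancel₀ hD (this.trans (mul_comm _ _)).symm

namespace S27

variable {G : Type*} [Group G] [Finite G] (f : K →* G)

noncomputable def v (χ : IrrCharacter G) : Fin 10 → ℤ := Fin.cons (ur χ (f x0)) fun i => iv χ (f (rq i))

theorem v_triv : v f (triv G) = tr := by
  ext i; refine Fin.cases (ur_triv _) (fun i => (iv_triv _).trans ?_) i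
  fin_cases i <;> rfl

theorem x3 : f x0 ^ 3 = 1 := by rw [← map_pow, f3.1, map_one]

variable {f}

theorem orthv (h : Loc f) (a b : Fin 10) : ∑ χ, v f χ a * v f χ b = if a = b then gm' a else 0 := by
  have k : ∀ i, ∑ χ, ur χ (f x0) * iv χ (f (rq i)) = 0 := fun i => orth_ur (x3 f) (f1.rt f i)
    (h.not_conj f3.2.1 (f3.2.2.2.2.1 i)) (by rw [← map_inv]; exact h.not_conj f3.2.2.1 (f3.2.2.2.2.2.1 i))
  refine Fin.cases ?_ (fun a => ?_) a <;> refine Fin.cases ?_ (fun b => ?_) b <;> simp only [v, Fin.cons_zero, Fin.cons_succ]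
  · rw [ur_self (x3 f) (by rw [← map_inv]; exact h.not_conj f3.2.1 f3.2.2.2.1), h.card_cent f3.2.1, f3.2.2.2.2.2.2.1]
    rfl
  · rw [k, if_neg (Fin.succ_ne_zero b).symm]
  · simp only [mul_comm (iv _ _), k, if_neg (Fin.succ_ne_zero a)]
  · rw [h.orths f1]
    simp only [Fin.succ_inj]
    congr 1
    fin_cases a <;> rfl

theorem orthdv (h : Loc f) (a : Fin 10) : ∑ χ, v f χ a * dg χ = 0 := by
  refine Fin.cases ?_ (fun a => h.orthd f1 a) a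
  exact orth_ur (x3 f) rt_one (fun e => h.ne_one f3.2.1 (isConj_one_left.1 e))
    fun e => h.ne_one f3.2.1 (inv_eq_one.1 (isConj_one_left.1 e))

theorem adm (h : Loc f) (χ : IrrCharacter G) (hχ : χ ≠ triv G) :
    ∃ j, (v f χ = w j ∧ True) ∨ (v f χ = -w j ∧ True) := by
  have hv : ∀ j, re2 χ (f (rp j)) = (Fin.cons (ur χ (f x0)) (fun i => 2 * iv χ (f (rp i.succ))) : Fin 14 → ℤ) j :=
    fun j => Fin.cases (ur_three (x3 f) χ).1 (fun j => (Loc.rt f (f0 j).1 (f0 j).2).re2 χ) j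
  obtain ⟨n1, h1⟩ := mult_int f m1 χ _ hv
  obtain ⟨n2, h2⟩ := mult_int f m2 χ _ hv
  obtain ⟨n3, h3⟩ := mult_int f m3 χ _ hv
  obtain ⟨n4, h4⟩ := mult_int f m4 χ _ hv
  obtain ⟨n5, h5⟩ := mult_int f m5 χ _ hv
  obtain ⟨n6, h6⟩ := mult_int f m6 χ _ hv
  have b := bessel (v f) ![1, 1, 1, 1, 2, 2, 2, 9, 9, 9] 54
    (fun a b => by
      rw [orthv h]; split_ifs with e
      · fin_cases a <;> rfl
      · exact mul_zero _) hχ
  have bx := fun a n hn h2 => mem_box (fun a => by fin_cases a <;> decide) b (by norm_num) a (n := n) hn h2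
  have u0 := (ur_three (x3 f) χ).2
  have u : ∀ i, rq i ^ 3 = 1 → (2 * iv χ (f (rq i)) + dg χ) % 3 = 0 := fun i hi => by
    obtain ⟨e1, e2⟩ := ur_three (x := f (rq i)) (by rw [← map_pow, hi, map_one]) χ
    rw [(f1.rt f i).re2] at e1
    rwa [← Int.cast_injective e1] at e2
  have u3 := u 3 f3.2.2.2.2.2.2.2.1
  have u4 := u 4 f3.2.2.2.2.2.2.2.2.1
  have u5 := u 5 f3.2.2.2.2.2.2.2.2.2
  have ev : v f χ = ![ur χ (f x0), iv χ (f (rq 0)), iv χ (f (rq 1)), iv χ (f (rq 2)), iv χ (f (rq 3)), iv χ (f (rq 4)),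
      iv χ (f (rq 5)), iv χ (f (rq 6)), iv χ (f (rq 7)), iv χ (f (rq 8))] := by
    ext i; fin_cases i <;> rfl
  have b0 := bx 0 7 (by norm_num) (by decide)
  have b1 := bx 1 7 (by norm_num) (by decide)
  have b2 := bx 2 7 (by norm_num) (by decide)
  have b3 := bx 3 7 (by norm_num) (by decide)
  have b4 := bx 4 5 (by norm_num) (by decide)
  have b5 := bx 5 5 (by norm_num) (by decide)
  have b6 := bx 6 5 (by norm_num) (by decide)
  have b7 := bx 7 2 (by norm_num) (by decide)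
  have b8 := bx 8 2 (by norm_num) (by decide)
  have b9 := bx 9 2 (by norm_num) (by decide)
  rw [v_triv] at b
  rw [ev] at b b0 b1 b2 b3 b4 b5 b6 b7 b8 b9 ⊢
  simp only [Fin.sum_univ_succ, Fin.sum_univ_zero, Matrix.cons_val_zero, Matrix.cons_val_succ, Fin.cons_zero,
    Fin.cons_succ, rp, tr] at h1 h2 h3 h4 h5 h6 b
  simp only [Matrix.cons_val] at b0 b1 b2 b3 b4 b5 b6 b7 b8 b9
  clear bx ev hv u
  generalize ur χ (f x0) = u, iv χ (f (rq 0)) = p, iv χ (f (rq 1)) = q, iv χ (f (rq 2)) = r, iv χ (f (rq 3)) = x,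
    iv χ (f (rq 4)) = y, iv χ (f (rq 5)) = z, iv χ (f (rq 6)) = P, iv χ (f (rq 7)) = Q, iv χ (f (rq 8)) = R at *
  have s1 : (p + 2 * x + 2 * y + 2 * u + 9 * P) % 18 = 0 := by clear * - h1 h2; omega
  have s2 : (q + 2 * x + 2 * z + 2 * u + 9 * Q) % 18 = 0 := by clear * - h3 h4; omega
  have s3 : (r + 2 * y + 2 * z + 2 * u + 9 * R) % 18 = 0 := by clear * - h5 h6; omega
  have nb : u * u + p * p + q * q + r * r + 2 * x * x + 2 * y * y + 2 * z * z + 9 * P * P + 9 * Q * Q + 9 * R * R ≤ 54 := by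
    clear * - b
    by_contra hc
    nlinarith [sq_nonneg (2 * u + p + q + r + 2 * x + 2 * y + 2 * z + 9 * P + 9 * Q + 9 * R)]
  obtain ⟨j, hj⟩ := types _ b0 _ b4 (by clear * - u0 u3; omega) _ b5 (by clear * - u0 u4; omega) _ b6
    (by clear * - u0 u5; omega) _ b1 (by clear * - s1; omega) _ b2 (by clear * - s2; omega) _ b3 (by clear * - s3; omega)
    (by clear * - nb; nlinarith [mul_self_nonneg P, mul_self_nonneg Q, mul_self_nonneg R])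
    _ b7 (by clear * - s1; omega) _ b8 (by clear * - s2; omega) _ b9 (by clear * - s3; omega) (by clear * - b; linarith)
  exact ⟨j, by simpa using hj⟩

theorem key (x y s : ℤ) (hx : x ≠ 0) (hy : y ≠ 0) (hs : s ≠ 0) (e : x + y = s) (h : (x : ℚ)⁻¹ + (y : ℚ)⁻¹ = 4 * (s : ℚ)⁻¹) :
    x = y := by
  subst e
  have h1 : (x : ℚ) ≠ 0 := by exact_mod_cast hx
  have h2 : (y : ℚ) ≠ 0 := by exact_mod_cast hy
  have h3 : ((x + y : ℤ) : ℚ) ≠ 0 := by exact_mod_cast hs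
  field_simp at h
  have : ((x : ℚ) - y) ^ 2 = 0 := by push_cast at h; linear_combination h
  exact_mod_cast sub_eq_zero.1 (pow_eq_zero_iff two_ne_zero |>.1 this)

theorem ar {A B C U U' V V' W W' X Y Z s : ℤ} {s' g : ℚ} (hU : U ≠ 0) (hU' : U' ≠ 0) (hV : V ≠ 0) (hV' : V' ≠ 0)
    (hW : W ≠ 0) (hW' : W' ≠ 0) (hX : X ≠ 0)
    (l0 : 2 + 2 * A + 2 * B + 2 * C - 2 * U - 2 * U' - 2 * V - 2 * V' - 2 * W - 2 * W' + 2 * X + 2 * Y + 2 * Z - s = 0)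
    (l1 : 1 + A + B + C - U - U' + 2 * V + 2 * V' + 2 * W + 2 * W' + 4 * X - 2 * Y - 2 * Z - 2 * s = 0)
    (l2 : 1 + A + B + C + 2 * U + 2 * U' - V - V' + 2 * W + 2 * W' - 2 * X + 4 * Y - 2 * Z - 2 * s = 0)
    (l3 : 1 + A + B + C + 2 * U + 2 * U' + 2 * V + 2 * V' - W - W' - 2 * X - 2 * Y + 4 * Z - 2 * s = 0)
    (l4 : 1 + A + B + C - U - U' - V - V' + 2 * W + 2 * W' - 2 * X - 2 * Y + Z + s = 0)
    (l5 : 1 + A + B + C - U - U' + 2 * V + 2 * V' - W - W' - 2 * X + Y - 2 * Z + s = 0)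
    (l6 : 1 + A + B + C + 2 * U + 2 * U' - V - V' - W - W' + X - 2 * Y - 2 * Z + s = 0)
    (l7 : 1 + A - B - C + U - U' = 0) (l8 : 1 - A + B - C + V - V' = 0) (l9 : 1 - A - B + C + W - W' = 0)
    (c1 : 1 + (A : ℚ)⁻¹ + (B : ℚ)⁻¹ + (C : ℚ)⁻¹ + 2 * (U : ℚ)⁻¹ + 2 * (U' : ℚ)⁻¹ - 4 * (V : ℚ)⁻¹ - 4 * (V' : ℚ)⁻¹
      + 8 * (W : ℚ)⁻¹ + 8 * (W' : ℚ)⁻¹ - 32 * (X : ℚ)⁻¹ + 16 * (Y : ℚ)⁻¹ - 8 * (Z : ℚ)⁻¹ - 8 * s' = 0)
    (c2 : 1 + (A : ℚ)⁻¹ + (B : ℚ)⁻¹ + (C : ℚ)⁻¹ + 2 * (U : ℚ)⁻¹ + 2 * (U' : ℚ)⁻¹ + 8 * (V : ℚ)⁻¹ + 8 * (V' : ℚ)⁻¹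
      - 4 * (W : ℚ)⁻¹ - 4 * (W' : ℚ)⁻¹ - 32 * (X : ℚ)⁻¹ - 8 * (Y : ℚ)⁻¹ + 16 * (Z : ℚ)⁻¹ - 8 * s' = 0)
    (c3 : 1 + (A : ℚ)⁻¹ + (B : ℚ)⁻¹ + (C : ℚ)⁻¹ - 4 * (U : ℚ)⁻¹ - 4 * (U' : ℚ)⁻¹ + 2 * (V : ℚ)⁻¹ + 2 * (V' : ℚ)⁻¹
      + 8 * (W : ℚ)⁻¹ + 8 * (W' : ℚ)⁻¹ + 16 * (X : ℚ)⁻¹ - 32 * (Y : ℚ)⁻¹ - 8 * (Z : ℚ)⁻¹ - 8 * s' = 0)
    (c4 : 1 + (A : ℚ)⁻¹ + (B : ℚ)⁻¹ + (C : ℚ)⁻¹ - (U : ℚ)⁻¹ - (U' : ℚ)⁻¹ - 4 * (V : ℚ)⁻¹ - 4 * (V' : ℚ)⁻¹
      + 8 * (W : ℚ)⁻¹ + 8 * (W' : ℚ)⁻¹ - 32 * (X : ℚ)⁻¹ - 8 * (Y : ℚ)⁻¹ + 4 * (Z : ℚ)⁻¹ + 4 * s' = 0)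
    (c5 : 1 + (A : ℚ)⁻¹ + (B : ℚ)⁻¹ + (C : ℚ)⁻¹ + 2 * (U : ℚ)⁻¹ + 2 * (U' : ℚ)⁻¹ - 4 * (V : ℚ)⁻¹ - 4 * (V' : ℚ)⁻¹
      - 4 * (W : ℚ)⁻¹ - 4 * (W' : ℚ)⁻¹ + 16 * (X : ℚ)⁻¹ - 8 * (Y : ℚ)⁻¹ - 8 * (Z : ℚ)⁻¹ + 4 * s' = 0)
    (c6 : 1 + (A : ℚ)⁻¹ + (B : ℚ)⁻¹ + (C : ℚ)⁻¹ + 2 * (U : ℚ)⁻¹ + 2 * (U' : ℚ)⁻¹ + 2 * (V : ℚ)⁻¹ + 2 * (V' : ℚ)⁻¹
      + 8 * (W : ℚ)⁻¹ + 8 * (W' : ℚ)⁻¹ + 16 * (X : ℚ)⁻¹ + 16 * (Y : ℚ)⁻¹ + 4 * (Z : ℚ)⁻¹ + 4 * s' = g) : g = 27 := by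
  obtain rfl : X = Y := by omega
  obtain rfl : X = Z := by omega
  obtain rfl := key U U' X hU hU' hX (by omega) (by linarith)
  obtain rfl := key V V' X hV hV' hX (by omega) (by linarith)
  obtain rfl := key W W' X hW hW' hX (by omega) (by linarith)
  obtain rfl : A = 1 := by omega
  obtain rfl : B = 1 := by omega
  obtain rfl : C = 1 := by omega
  obtain rfl : X = 4 := by omega
  obtain rfl : U = 2 := by omega
  obtain rfl : V = 2 := by omega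
  obtain rfl : W = 2 := by omega
  norm_num at c5 c6
  linarith

theorem sum30 {R : Type*} [Ring R] (F : Fin 30 → R) (h : ∀ j : Fin 30, 13 < j.val → F j = 0) :
    ∑ j, F j = F 0 + F 1 + F 2 + F 3 + F 4 + F 5 + F 6 + F 7 + F 8 + F 9 + F 10 + F 11 + F 12 + F 13 := by
  rw [← Finset.sum_subset (Finset.subset_univ {0, 1, 2, 3, 4, 5, 6, 7, 8, 9, 10, 11, 12, 13}) fun j _ hj =>
    h j (by revert hj j; decide)]
  simp +decide only [add_assoc, Finset.sum_insert, Finset.sum_singleton, Finset.mem_insert, Finset.mem_singleton,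
    not_false_eq_true]

end S27

set_option maxHeartbeats 1000000 in
open S27 in
theorem card_108 {G : Type*} [Group G] [Finite G] {f : S27.K →* G} (h : Loc f) : Nat.card G = 108 := by
  obtain ⟨M, a1, a2, a3, a4⟩ := extract (v f) w (fun _ _ => True) (adm h)
  have g0 : Nat.card G ≠ 0 := Nat.card_pos.ne'
  have nz : ∀ j x, M j = {x} → x ≠ 0 := fun j x hx e => g0 (by simpa [e] using (a1 j x (by simp [hx])).2.1)
  simp only [orthv h, orthdv h, v_triv] at a2 a3 a4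
  have hn : ∀ j : Fin 29, (M j.succ).card = if j.val < 12 then 1 else if j.val = 12 then 2 else 0 := fun j =>
    lin_cert w (fun a b => (if a = b then gm' a else 0) - tr a * tr b) (fun j => (M j).card)
      (fun a b => by rw [a2]; ring) _ _ _ (by norm_num) (cert j).1 (cert j).2
  have h0 : ∀ j : Fin 30, 13 < j.val → M j = 0 := fun j => Fin.cases (by simp) (fun j hj => by
    rw [← Multiset.card_eq_zero, hn, if_neg (by simp at hj; omega), if_neg (by simp at hj; omega)]) j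
  have a3' := fun a => (a3 a).trans (congrArg _ (sum30 _ fun j hj => by simp [h0 j hj]))
  have a4' := fun a b c => (a4 a b c).trans (congrArg _ (sum30 _ fun j hj => by simp [h0 j hj]))
  have one : ∀ j : Fin 29, j.val < 12 → ∃ x, M j.succ = {x} := fun j hj => by rw [← Multiset.card_eq_one, hn, if_pos hj]
  obtain ⟨A, e1⟩ : ∃ x, M 1 = {x} := one 0 (by decide)
  obtain ⟨B, e2⟩ : ∃ x, M 2 = {x} := one 1 (by decide)
  obtain ⟨C, e3⟩ : ∃ x, M 3 = {x} := one 2 (by decide)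
  obtain ⟨U, e4⟩ : ∃ x, M 4 = {x} := one 3 (by decide)
  obtain ⟨U', e5⟩ : ∃ x, M 5 = {x} := one 4 (by decide)
  obtain ⟨V, e6⟩ : ∃ x, M 6 = {x} := one 5 (by decide)
  obtain ⟨V', e7⟩ : ∃ x, M 7 = {x} := one 6 (by decide)
  obtain ⟨W, e8⟩ : ∃ x, M 8 = {x} := one 7 (by decide)
  obtain ⟨W', e9⟩ : ∃ x, M 9 = {x} := one 8 (by decide)
  obtain ⟨X, e10⟩ : ∃ x, M 10 = {x} := one 9 (by decide)
  obtain ⟨Y, e11⟩ : ∃ x, M 11 = {x} := one 10 (by decide)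
  obtain ⟨Z, e12⟩ : ∃ x, M 12 = {x} := one 11 (by decide)
  have c1 := (h.cubs f1 f2.1).symm.trans (a4' 1 2 1)
  have c2 := (h.cubs f1 f2.2.1).symm.trans (a4' 1 3 1)
  have c3 := (h.cubs f1 f2.2.2.1).symm.trans (a4' 1 2 2)
  have c4 := (h.cubs f1 f2.2.2.2.1).symm.trans (a4' 1 4 1)
  have c5 := (h.cubs f1 f2.2.2.2.2.1).symm.trans (a4' 1 6 1)
  have c6 := (h.cubs f1 f2.2.2.2.2.2).symm.trans (a4' 1 2 4)
  have l0 := a3' 0
  have l1 := a3' 1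
  have l2 := a3' 2
  have l3 := a3' 3
  have l4 := a3' 4
  have l5 := a3' 5
  have l6 := a3' 6
  have l7 := a3' 7
  have l8 := a3' 8
  have l9 := a3' 9
  simp [w, tr, e1, e2, e3, e4, e5, e6, e7, e8, e9, e10, e11, e12] at c1 c2 c3 c4 c5 c6 l0 l1 l2 l3 l4 l5 l6 l7 l8 l9
  have := ar (A := A) (B := B) (C := C) (Y := Y) (Z := Z) (s := (M 13).sum) (g := 2916 / Nat.card G)
    (s' := ((M 13).map fun x : ℤ => (x : ℚ)⁻¹).sum) (nz _ _ e4) (nz _ _ e5) (nz _ _ e6) (nz _ _ e7) (nz _ _ e8)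
    (nz _ _ e9) (nz _ _ e10) (by linarith) (by linarith) (by linarith) (by linarith) (by linarith) (by linarith)
    (by linarith) (by linarith) (by linarith) (by linarith) (by linarith) (by linarith) (by linarith) (by linarith)
    (by linarith) (by linarith)
  rw [div_eq_iff (by exact_mod_cast g0)] at this
  have : (2916 : ℕ) = 27 * Nat.card G := by exact_mod_cast this
  omega

end H18.Col
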