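import Mathlib

/-!
# Small Knuth-Bendix certificates (helper18)

Words are lists of natural numbers, evaluated by `g : ℕ → G`.
* `H18.KB.red` : rewriting with a list of rules; `H18.KB.grow` : new rules from overlaps;
* `H18.KB.card_le` : a monoid generated by the `g i` has at most as many elements as a list of words
  closed under left multiplication and rewriting.
-/

set_option autoImplicit false

namespace H18.KB

variable {G : Type*} [Monoid G] (g : ℕ → G)

def ev (w : List ℕ) : G := (w.map g).prod

@[simp] theorem ev_nil : ev g [] = 1 := rfl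
@[simp] theorem ev_cons (a : ℕ) (w : List ℕ) : ev g (a :: w) = g a * ev g w := by simp [ev]
@[simp] theorem ev_append (u w : List ℕ) : ev g (u ++ w) = ev g u * ev g w := by simp [ev]

abbrev Rl := List (List ℕ × List ℕ)

def Ok (R : Rl) : Prop := ∀ p ∈ R, ev g p.1 = ev g p.2

/-- strip a prefix -/
def pre : List ℕ → List ℕ → Option (List ℕ)
  | [], w => some w
  | _ :: _, [] => none
  | a :: l, b :: w => bif Nat.beq a b then pre l w else none

theorem pre_eq : ∀ {l w r : List ℕ}, pre l w = some r → w = l ++ r
  | [], _, _, h => by simpa [pre] using h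
  | _ :: _, [], _, h => by simp [pre] at h
  | a :: l, b :: w, r, h => by
    unfold pre at h
    cases e : Nat.beq a b
    · simp [e] at h
    · rw [e] at h
      rw [Nat.eq_of_beq_eq_true e, pre_eq h]; rfl

def find (w : List ℕ) : Rl → Option (List ℕ × List ℕ)
  | [] => none
  | p :: R => match pre p.1 w with
    | some r => some (p.2, r)
    | none => find w R

variable {g}

theorem find_eq {w : List ℕ} : ∀ {R : Rl}, Ok g R → ∀ {q}, find w R = some q → ev g w = ev g q.1 * ev g q.2
  | [], _, _, h => by simp [find] at h
  | p :: R, hR, q, h => by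
    unfold find at h
    cases e : pre p.1 w with
    | none => rw [e] at h; exact find_eq (fun x hx => hR x (List.mem_cons_of_mem _ hx)) h
    | some r =>
      rw [e] at h
      obtain rfl := Option.some.inj h
      rw [pre_eq e, ev_append, hR p List.mem_cons_self]

def go (R : Rl) : ℕ → List ℕ → List ℕ → List ℕ
  | 0, t, d => t.reverse ++ d
  | _ + 1, [], d => d
  | n + 1, a :: t, d => match find (a :: d) R with
    | some q => go R n (q.1.reverse ++ t) q.2
    | none => go R n t (a :: d)

theorem go_eq {R : Rl} (hR : Ok g R) : ∀ (n : ℕ) (t d : List ℕ), ev g (go R n t d) = ev g t.reverse * ev g d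
  | 0, t, d => by simp [go]
  | _ + 1, [], d => by simp [go]
  | n + 1, a :: t, d => by
    unfold go
    cases e : find (a :: d) R with
    | none => simp [go_eq hR n, mul_assoc]
    | some q =>
      have := find_eq hR e
      simp only [go_eq hR n, List.reverse_append, List.reverse_reverse, List.reverse_cons, ev_append, mul_assoc,
        ← this, ev_cons, ev_nil, one_mul]

def red (R : Rl) (w : List ℕ) : List ℕ := go R 10000 w.reverse []

theorem red_eq {R : Rl} (hR : Ok g R) (w : List ℕ) : ev g (red R w) = ev g w := by
  simp [red, go_eq hR]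

/-- a step `(i, j, k, f)`: rule `j` overlaps rule `i` at position `k`; `f` is the orientation -/
def nw (R : Rl) (s : ℕ × ℕ × ℕ × Bool) : List ℕ × List ℕ :=
  match R[s.1]?, R[s.2.1]? with
  | some p, some q =>
    match pre (p.1.drop s.2.2.1) q.1 with
    | some b =>
      bif s.2.2.2 then (red R (p.2 ++ b), red R (p.1.take s.2.2.1 ++ q.2))
      else (red R (p.1.take s.2.2.1 ++ q.2), red R (p.2 ++ b))
    | none => ([], [])
  | _, _ => ([], [])

theorem nw_eq {R : Rl} (hR : Ok g R) (s : ℕ × ℕ × ℕ × Bool) : ev g (nw R s).1 = ev g (nw R s).2 := by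
  unfold nw
  split
  · rename_i p q hp hq
    split
    · rename_i b hb
      have h1 := hR p (List.mem_of_getElem? hp)
      have h2 := hR q (List.mem_of_getElem? hq)
      have : ev g (p.2 ++ b) = ev g (p.1.take s.2.2.1 ++ q.2) := by
        rw [ev_append, ev_append, ← h1, ← h2, pre_eq hb, ← ev_append, ← ev_append, ← List.append_assoc,
          List.take_append_drop]
      cases s.2.2.2 <;> simp only [cond, red_eq hR, this]
    · rfl
  · rfl

/-- new rules are put in front; the rules with an index in the attached list are dropped -/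
def grow : Rl → List ((ℕ × ℕ × ℕ × Bool) × List ℕ) → Rl
  | R, [] => R
  | R, s :: c => grow (nw R s.1 :: s.2.foldl List.eraseIdx R) c

theorem ok_erase : ∀ (l : List ℕ) {R : Rl}, Ok g R → Ok g (l.foldl List.eraseIdx R)
  | [], _, h => h
  | _ :: l, _, h => ok_erase l fun p hp => h p (List.mem_of_mem_eraseIdx hp)

theorem grow_ok : ∀ (c : List ((ℕ × ℕ × ℕ × Bool) × List ℕ)) {R : Rl}, Ok g R → Ok g (grow R c)
  | [], _, h => h
  | s :: c, R, h => grow_ok c fun p hp => by
    rcases List.mem_cons.1 hp with rfl | hp
    · exact nw_eq h _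
    · exact ok_erase _ h p hp

def closed (n : ℕ) (R : Rl) (N : List (List ℕ)) : Bool :=
  N.contains [] && N.all fun w => (List.range n).all fun a => N.contains (red R (a :: w))

theorem card_le {n : ℕ} {R : Rl} (hR : Ok g R) {N : List (List ℕ)} (h : closed n R N = true)
    (hg : Submonoid.closure (g '' {i | i < n}) = ⊤) : Finite G ∧ Nat.card G ≤ N.length := by
  simp only [closed, Bool.and_eq_true, List.contains_iff_mem, List.all_eq_true, List.mem_range] at h
  have key : ∀ x : G, ∃ w ∈ N, ev g w = x := by
    intro x
    have hx : x ∈ Submonoid.closure (g '' {i | i < n}) := hg ▸ trivial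
    induction hx using Submonoid.closure_induction_left with
    | one => exact ⟨[], h.1, rfl⟩
    | mul_left x hx y _ ih =>
      obtain ⟨a, ha, rfl⟩ := hx
      obtain ⟨w, hw, rfl⟩ := ih
      exact ⟨_, h.2 w hw a ha, by rw [red_eq hR, ev_cons]⟩
  have hs : Function.Surjective fun i : Fin N.length => ev g N[i] := fun x => by
    obtain ⟨w, hw, rfl⟩ := key x
    obtain ⟨i, hi, rfl⟩ := List.getElem_of_mem hw
    exact ⟨⟨i, hi⟩, rfl⟩
  exact ⟨Finite.of_surjective _ hs, by simpa using Nat.card_le_card_of_surjective _ hs⟩

end H18.KB
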