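import Mathlib
import Cfsg.Agent.H18.FC5
import Cfsg.Agent.H16.PiHall
import Cfsg.Agent.H01.Coprime2

/-!
# TI Hall subgroups of `π`-separable groups (helper18)

* `IsFC.of_hom`, `IsFC.of_rel` (coprime action with `C_L(h) = C_L(H)`);
* `tih_main` : `G = O N(H)` and `H` is a Frobenius complement.
-/

set_option autoImplicit false

namespace H18
open Subgroup Cfsg
open scoped Pointwise

variable {G : Type*} [Group G]

theorem IsFC.of_hom {X : Type*} [Group X] [Finite X] (ι : G →* X) {K : Subgroup X} (hK : K ≠ ⊥)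
    (hn : ∀ g, ι g ∈ normalizer (K : Set X)) (hf : ∀ g, g ≠ 1 → ∀ k ∈ K, ι g * k = k * ι g → k = 1) : IsFC G := by
  haveI := (K.nontrivial_iff_ne_bot).2 hK
  refine IsFC.of_act (K.normalizerMonoidHom.comp (ι.codRestrict _ hn)) fun g hg k hk => Subtype.ext ?_
  have : ι g * k * (ι g)⁻¹ = k := congrArg Subtype.val hk
  exact hf g hg k k.2 (mul_inv_eq_iff_eq_mul.1 this)

theorem IsFC.of_rel [Finite G] {H L : Subgroup G} (hn : H ≤ normalizer (L : Set G))
    (hc : (Nat.card H).Coprime (Nat.card L)) (h1 : ¬ L ≤ centralizer (H : Set G))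
    (h2 : ∀ h ∈ H, h ≠ 1 → ∀ x ∈ L, h * x = x * h → x ∈ centralizer (H : Set G)) : IsFC H := by
  obtain ⟨p, hp, P, hPL, hP, hPn, hPc⟩ : ∃ p : ℕ, p.Prime ∧ ∃ P ≤ L, IsPGroup p P ∧ H ≤ normalizer (P : Set G) ∧
      ¬ P ≤ centralizer (H : Set G) := by
    by_contra! hx
    refine h1 (H01.le_of_sylow_le fun p hp => ?_)
    haveI := Fact.mk hp
    obtain ⟨P, a, b, c, d⟩ := H01.exists_invariant_sylow hn hc (H16.sol_or_of_coprime hc) p
    exact ⟨P, hx p hp P a b d, c⟩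
  haveI := Fact.mk hp
  haveI := hP.isNilpotent
  obtain ⟨N, hN⟩ : ∃ N, N = P ⊓ centralizer (H : Set G) := ⟨_, rfl⟩
  obtain ⟨u, ⟨u1, u2⟩, u3⟩ := SetLike.exists_of_lt (H01.lt_inf_normalizer_of_nilpotent (hN ▸ inf_lt_left.2 hPc : N < P))
  have hX : H ≤ normalizer (N : Set G) := hN ▸ H01.le_normalizer_inf hPn (H01.le_normalizer_centralizer le_normalizer)
  let f := QuotientGroup.mk' (N.subgroupOf (normalizer (N : Set G)))
  have hf : ∀ x, f x = 1 ↔ (x : G) ∈ N := fun x => QuotientGroup.eq_one_iff x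
  have hNP : N ≤ P := hN.le.trans inf_le_left
  refine IsFC.of_hom (f.comp (inclusion hX)) (K := (P.subgroupOf _).map f) (fun e => u3 ?_) (fun g => ?_) ?_
  · exact (hf ⟨u, u2⟩).1 (mem_bot.1 (e ▸ mem_map_of_mem f (show (⟨u, u2⟩ : normalizer _) ∈ _ from u1)))
  · refine le_normalizer_map f ⟨inclusion hX g, ?_, rfl⟩
    exact mem_normalizer_iff.2 fun x => mem_normalizer_iff.1 (hPn g.2) x
  · rintro g hg _ ⟨k, hk, rfl⟩ e
    have hz : zpowers (g : G) ≤ H := zpowers_le.2 g.2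
    have h3 : (Nat.card (zpowers (g : G))).Coprime (Nat.card N) :=
      H01.coprime_of_le_left (H01.coprime_of_le_right hc (hNP.trans hPL)) hz
    obtain ⟨n, hn, h4⟩ := H01.coset_fixed' (hz.trans hX) h3 (Or.inl inferInstance) (g := k) (by
      rintro _ ⟨m, rfl⟩
      have : Commute (f (inclusion hX g ^ m)) (f k) := by rw [map_zpow]; exact Commute.zpow_left e m
      have : f (inclusion hX g ^ m * k * (inclusion hX g ^ m)⁻¹ * k⁻¹) = 1 := by
        simp only [map_mul, map_inv, this.eq, mul_inv_cancel_right, mul_inv_cancel]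
      exact (hf _).1 this)
    have h5 : n * k ∈ P := mul_mem (hNP hn) hk
    have h6 : n * k ∈ N := hN.ge ⟨h5, h2 g g.2 (fun e => hg (Subtype.ext e)) _ (hPL h5) (h4 _ (mem_zpowers _))⟩
    exact (hf _).2 ((mul_mem_cancel_left hn).1 h6)

theorem tih_main [Finite G] {H : Subgroup G} (hTI : IsTISubset (H : Set G)) (hnn : ¬ H.Normal)
    (hHall : (Nat.card H).Coprime (H.subgroupOf (normalizer (H : Set G))).index)
    (hsep : ∃ (n : ℕ) (M : Fin (n + 1) → Subgroup G), M 0 = ⊥ ∧ M (Fin.last n) = ⊤ ∧ Monotone M ∧ (∀ i, (M i).Normal) ∧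
      ∀ i : Fin n, (∀ q : ℕ, q.Prime → q ∣ (M i.castSucc).relIndex (M i.succ) → q ∣ Nat.card H) ∨
        ((M i.castSucc).relIndex (M i.succ)).Coprime (Nat.card H)) :
    (Nat.card H).Coprime H.index ∧ piCore {p | p ∣ Nat.card H}ᶜ G ⊔ normalizer (H : Set G) = ⊤ ∧ IsFC H := by
  have h1 := H16.ti_hall_of_hall_normalizer hTI hHall
  have h2 := H01.isPiHall_of_coprime h1
  obtain ⟨n, M, m0, m1, -, m2, m3⟩ := hsep
  have hs : H01.PiSep {p | p ∣ Nat.card H} G := H01.piSep_of_chain M m0 m1 m2 fun i => (m3 i).imp id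
    fun h q hq hd hd' => hq.one_lt.ne' (Nat.eq_one_of_dvd_coprimes h hd hd')
  obtain ⟨L, hL⟩ : ∃ L, L = piCore {p | p ∣ Nat.card H}ᶜ G := ⟨_, rfl⟩
  haveI : L.Normal := hL ▸ inferInstance
  have hLp : H01.PiNum {p | p ∣ Nat.card H}ᶜ (Nat.card L) := hL ▸ H02.piCore_isPi _ G
  have hc : (Nat.card H).Coprime (Nat.card L) := H01.PiNum.coprime h2.1 hLp
  have hd : H ⊓ L = ⊥ := inf_eq_bot_of_coprime hc
  have hf := QuotientGroup.mk'_surjective L
  obtain ⟨K, Kn, K0, hK⟩ := hs _ _ hf (QuotientGroup.nontrivial_iff.2 fun e => hnn (by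
    rw [e, inf_top_eq] at hd; rw [hd]; infer_instance))
  have hKH := H01.le_of_normal_of_isPiHall (H01.isPiHall_map h2 _ hf) (hK.resolve_right fun e => K0 (by
    subst hL; exact le_bot_iff.1 ((H02.le_piCore e).trans (H02.piCore_quotient_piCore _ G).le)))
  have hQ : K.comap (QuotientGroup.mk' L) ≤ (H ⊓ K.comap (QuotientGroup.mk' L)) ⊔ L := fun x hx => by
    obtain ⟨y, hy, e⟩ := hKH hx
    rw [← mul_inv_cancel_left y x]
    exact mul_mem (mem_sup_left ⟨hy, show _ ∈ K from e ▸ hx⟩) (mem_sup_right (QuotientGroup.eq.1 e))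
  obtain ⟨⟨x, hx⟩, x1⟩ : ∃ x : ↥(H ⊓ K.comap (QuotientGroup.mk' L)), x ≠ 1 := ne_bot_iff_exists_ne_one.1 fun e => K0 (by
    rw [e, bot_sup_eq] at hQ
    rw [← map_comap_eq_self_of_surjective hf K, Subgroup.map_eq_bot_iff, QuotientGroup.ker_mk']
    exact hQ)
  have hc' := H01.coprime_of_le_left hc (inf_le_left : H ⊓ K.comap (QuotientGroup.mk' L) ≤ H)
  have h3 : L ⊔ normalizer (H : Set G) = ⊤ := eq_top_iff.2 fun g _ => by
    obtain ⟨n, hn, e⟩ := H01.conj_of_le_sup (B := MulAut.conj g • _) (H01.le_normalizer_of_normal _ _) hc'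
      (H16.sol_or_of_coprime hc') ((H01.conj_smul_le_of_mem_normalizer inf_le_right
        (H01.le_normalizer_of_normal ⊤ _ (mem_top g))).trans hQ) (H01.card_conj_smul _ _)
    obtain ⟨y, hy, e1⟩ : MulAut.conj g x ∈ MulAut.conj n • (H ⊓ K.comap (QuotientGroup.mk' L)) :=
      e ▸ smul_mem_pointwise_smul _ _ _ hx
    rw [← mul_inv_cancel_left n g]
    refine mul_mem (mem_sup_left hn) (mem_sup_right (H16.ti_mem_normalizer hTI hx.1 (fun e => x1 (Subtype.ext e)) ?_))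
    have e2 : n * y * n⁻¹ = g * x * g⁻¹ := e1
    rw [show n⁻¹ * g * x * (n⁻¹ * g)⁻¹ = n⁻¹ * (g * x * g⁻¹) * n by group, ← e2]
    simpa [mul_assoc] using hy.1
  refine ⟨h1, hL ▸ h3, IsFC.of_rel (H01.le_normalizer_of_normal _ _) hc (fun e => hnn ?_) fun h hh h0 x hx e y hy => ?_⟩
  · exact normalizer_eq_top_iff.1 (eq_top_iff.2 (h3.ge.trans (sup_le (e.trans (centralizer_le_normalizer _)) le_rfl)))
  · have h4 := H16.ti_mem_normalizer hTI hh h0 (g := x) (by rwa [← e, mul_inv_cancel_right])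
    have h5 : y⁻¹ * (x * y * x⁻¹) ∈ H ⊓ L := ⟨H.mul_mem (H.inv_mem hy) ((mem_normalizer_iff.1 h4 y).1 hy), by
      rw [← mul_assoc, ← mul_assoc]
      exact L.mul_mem (Normal.conj_mem' inferInstance x hx y) (L.inv_mem hx)⟩
    rw [hd, mem_bot, inv_mul_eq_one, eq_mul_inv_iff_mul_eq] at h5
    exact h5

end H18
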